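import Mathlib
import Cfsg.Prelude.Def_ConjugacyFunctors
import Cfsg.Agent.Lib.PStable.QdAct
import Cfsg.Agent.Lib.PLocal.TransferControl

/-!
No family of functors on `p`-groups controls strong fusion in `Qd(p)`.
-/

set_option autoImplicit false
set_option linter.unusedVariables false
set_option linter.style.haveILetI false

open scoped Matrix commutatorElement

namespace Cfsg.Lib.PStable

open Cfsg Cfsg.Lib.PLocal

universe u

variable {p : ℕ} [Fact p.Prime]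

/-- Every value normalizer fixes the smallest normal subgroup `Z` of `T`. -/
theorem wN_le_normalizer {X : Type u} [Group X] [Finite X] {W : ∀ (Q : Type u) [Group Q], Subgroup Q}
    (hW : IsCharPFunctor.{u} p W) (T V Z : Subgroup X) [V.Normal] (hT : IsPGroup p T) (hT1 : T ≠ ⊥) (hVT : V ≤ T)
    (hZV : Z ≤ V) (hZmid : ∀ U : Subgroup X, Z ≤ U → U ≤ V → U = Z ∨ U = V)
    (hZmin : ∀ U : Subgroup X, U ≤ T → T ≤ Subgroup.normalizer (U : Set X) → U ≠ ⊥ → Z ≤ U)
    (hZN : Subgroup.normalizer (T : Set X) ≤ Subgroup.normalizer (Z : Set X)) (φ : T ≃* T)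
    (hgen : ∀ U : Subgroup T, V.subgroupOf T ≤ U → (V.subgroupOf T).map φ.toMonoidHom ≤ U → U = ⊤) :
    TransferControl.wN W T ≤ Subgroup.normalizer (Z : Set X) := by
  set U := inducedFunctor W T with hU
  have hUT : U ≤ T := TransferControl.induced_le W T
  have hTU : T ≤ Subgroup.normalizer (U : Set X) :=
    Subgroup.le_normalizer.trans (TransferControl.normalizer_le hW T hT)
  have hZU : Z ≤ U := hZmin U hUT hTU (TransferControl.induced_ne_bot hW T hT hT1)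
  intro g hg
  rcases hZmid (U ⊓ V) (le_inf hZU hZV) inf_le_right with e | e
  · rw [← e]
    refine Subgroup.mem_normalizer_iff.2 fun y => ?_
    simp only [Subgroup.mem_inf]
    exact and_congr (Subgroup.mem_normalizer_iff.1 hg y) ⟨fun h => (inferInstance : V.Normal).conj_mem y h g,
      fun h => by simpa [mul_assoc] using (inferInstance : V.Normal).conj_mem _ h g⁻¹⟩
  · have h1 : V.subgroupOf T ≤ W ↥T := by
      intro y hy
      obtain ⟨y', hy', he⟩ := (e.ge hy).1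
      exact Subtype.ext he ▸ hy'
    have h2 : W ↥T = ⊤ := hgen _ h1 (by rw [← hW.2 ↥T ↥T hT φ]; exact Subgroup.map_mono h1)
    have hUe : U = T := by
      show (W ↥T).map T.subtype = T
      rw [h2, ← MonoidHom.range_eq_map, Subgroup.range_subtype]
    refine hZN ?_
    rw [← hUe]
    exact hg

/-- The upper triangular Sylow subgroup, in coordinates. -/
def qdEl (a x y : ZMod p) : ↥(Cfsg.qd p) := ⟨aff (upU a) ![y, x], aff_mem _ _⟩

theorem qdEl_mul (a x y a' x' y' : ZMod p) :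
    qdEl a x y * qdEl a' x' y' = qdEl (a + a') (x + x') (y + y' + a * x') := by
  refine Subtype.ext ?_
  show aff _ _ * aff _ _ = aff _ _
  rw [← aff_mul, ← upU_add]
  congr 1
  funext i
  fin_cases i <;> simp [upU, add_assoc, mul_comm]

theorem qdEl_one : qdEl (p := p) 0 0 0 = 1 := by
  refine Subtype.ext (Subtype.ext ?_)
  ext i j
  fin_cases i <;> fin_cases j <;> simp [qdEl, aff, upU]

theorem qdEl_inj {a x y a' x' y' : ZMod p} (h : qdEl a x y = qdEl a' x' y') : a = a' ∧ x = x' ∧ y = y' := by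
  obtain ⟨h1, h2⟩ := aff_inj (congrArg Subtype.val h)
  refine ⟨?_, ?_, ?_⟩
  · simpa [upU] using congrArg (fun M : Matrix.SpecialLinearGroup (Fin 2) (ZMod p) => M 0 1) h1
  · simpa using congrFun h2 1
  · simpa using congrFun h2 0

theorem qdEl_inv (a x y : ZMod p) : (qdEl a x y)⁻¹ = qdEl (-a) (-x) (-y + a * x) := by
  refine inv_eq_of_mul_eq_one_right ?_
  rw [qdEl_mul, ← qdEl_one]
  congr 1 <;> ring

/-- The subgroup of those elements. -/
def qdS : Subgroup ↥(Cfsg.qd p) where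
  carrier := {g | ∃ a x y, g = qdEl a x y}
  one_mem' := ⟨0, 0, 0, qdEl_one.symm⟩
  mul_mem' := by
    rintro _ _ ⟨a, x, y, rfl⟩ ⟨a', x', y', rfl⟩
    exact ⟨_, _, _, qdEl_mul a x y a' x' y'⟩
  inv_mem' := by
    rintro _ ⟨a, x, y, rfl⟩
    exact ⟨_, _, _, qdEl_inv a x y⟩

theorem qdEl_zero_eq (x y : ZMod p) : qdEl 0 x y = qdT (Multiplicative.ofAdd ![y, x]) := by
  refine Subtype.ext ?_
  show aff (upU 0) ![y, x] = aff 1 ![y, x]
  congr 1
  refine Subtype.ext ?_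
  ext i j
  fin_cases i <;> fin_cases j <;> simp [upU]

theorem qdT_eq (c : Multiplicative (Fin 2 → ZMod p)) : qdT c = qdEl 0 (c.toAdd 1) (c.toAdd 0) := by
  rw [qdEl_zero_eq]
  congr 1
  refine Multiplicative.toAdd.injective (funext fun i => ?_)
  fin_cases i <;> simp

theorem qdEl_pow (a x y : ZMod p) (n : ℕ) : ∃ w, qdEl a x y ^ n = qdEl ((n : ZMod p) * a) ((n : ZMod p) * x) w := by
  induction n with
  | zero => exact ⟨0, by simp [qdEl_one]⟩
  | succ n ih =>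
    obtain ⟨w, hw⟩ := ih
    refine ⟨w + y + (n : ZMod p) * a * x, ?_⟩
    rw [pow_succ, hw, qdEl_mul]
    congr 1 <;> push_cast <;> ring

theorem qdEl_centre_pow (y : ZMod p) (n : ℕ) : qdEl 0 0 y ^ n = qdEl 0 0 ((n : ZMod p) * y) := by
  induction n with
  | zero => simp [qdEl_one]
  | succ n ih =>
    rw [pow_succ, ih, qdEl_mul]
    congr 1 <;> push_cast <;> ring

theorem isPGroup_qdS : IsPGroup p (qdS (p := p)) := by
  rintro ⟨_, a, x, y, rfl⟩
  refine ⟨2, Subtype.ext ?_⟩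
  obtain ⟨w, hw⟩ := qdEl_pow a x y p
  rw [SubmonoidClass.coe_pow, OneMemClass.coe_one, sq p, pow_mul, hw]
  simp [qdEl_centre_pow, qdEl_one]

/-- The automorphism exchanging the two abelian subgroups of order `p²`. -/
def qdSwap : qdS (p := p) ≃* qdS (p := p) := by
  let f : qdS (p := p) → qdS (p := p) := fun g =>
    ⟨qdEl ((((g : ↥(Cfsg.qd p)) : Matrix.SpecialLinearGroup (Fin 3) (ZMod p)) : Matrix (Fin 3) (Fin 3) (ZMod p)) 1 2)
      ((((g : ↥(Cfsg.qd p)) : Matrix.SpecialLinearGroup (Fin 3) (ZMod p)) : Matrix (Fin 3) (Fin 3) (ZMod p)) 0 1)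
      ((((g : ↥(Cfsg.qd p)) : Matrix.SpecialLinearGroup (Fin 3) (ZMod p)) : Matrix (Fin 3) (Fin 3) (ZMod p)) 0 1 *
        (((g : ↥(Cfsg.qd p)) : Matrix.SpecialLinearGroup (Fin 3) (ZMod p)) : Matrix (Fin 3) (Fin 3) (ZMod p)) 1 2 -
        (((g : ↥(Cfsg.qd p)) : Matrix.SpecialLinearGroup (Fin 3) (ZMod p)) : Matrix (Fin 3) (Fin 3) (ZMod p)) 0 2),
      _, _, _, rfl⟩
  have hf : ∀ (a x y : ZMod p) (h : qdEl a x y ∈ qdS), (f ⟨qdEl a x y, h⟩ : ↥(Cfsg.qd p)) = qdEl x a (a * x - y) := by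
    intro a x y h
    simp [f, qdEl, aff, upU]
  refine
    { toFun := f
      invFun := f
      left_inv := ?_
      right_inv := ?_
      map_mul' := ?_ }
  · rintro ⟨_, a, x, y, rfl⟩
    have e : f ⟨qdEl a x y, a, x, y, rfl⟩ = ⟨qdEl x a (a * x - y), _, _, _, rfl⟩ := Subtype.ext (hf a x y _)
    rw [e]
    refine Subtype.ext ((hf _ _ _ _).trans ?_)
    congr 1; ring
  · rintro ⟨_, a, x, y, rfl⟩
    have e : f ⟨qdEl a x y, a, x, y, rfl⟩ = ⟨qdEl x a (a * x - y), _, _, _, rfl⟩ := Subtype.ext (hf a x y _)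
    rw [e]
    refine Subtype.ext ((hf _ _ _ _).trans ?_)
    congr 1; ring
  · rintro ⟨_, a, x, y, rfl⟩ ⟨_, a', x', y', rfl⟩
    refine Subtype.ext ?_
    have e : (⟨qdEl a x y, a, x, y, rfl⟩ * ⟨qdEl a' x' y', a', x', y', rfl⟩ : qdS (p := p)) =
        ⟨qdEl (a + a') (x + x') (y + y' + a * x'), _, _, _, rfl⟩ := Subtype.ext (qdEl_mul a x y a' x' y')
    rw [e, hf, Subgroup.coe_mul, hf, hf, qdEl_mul]
    congr 1; ring
    all_goals exact ⟨_, _, _, rfl⟩

theorem qdSwap_apply (a x y : ZMod p) (h : qdEl a x y ∈ qdS) :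
    (qdSwap ⟨qdEl a x y, h⟩ : ↥(Cfsg.qd p)) = qdEl x a (a * x - y) := by
  simp [qdSwap, qdEl, aff, upU]

theorem mem_qdS_iff {g : ↥(Cfsg.qd p)} {m : Matrix.SpecialLinearGroup (Fin 2) (ZMod p)} {c : Fin 2 → ZMod p}
    (hg : g = ⟨aff m c, aff_mem m c⟩) (h1 : m 1 0 = 0) (h2 : m 0 0 = 1) : g ∈ qdS := by
  refine ⟨m 0 1, c 1, c 0, ?_⟩
  have hdet := det_eq (g := m)
  rw [h1, h2] at hdet
  subst hg
  refine Subtype.ext ?_
  show aff m c = aff _ _
  congr 1
  · refine Subtype.ext ?_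
    ext i j
    fin_cases i <;> fin_cases j <;> simp_all [upU]
  · funext i
    fin_cases i <;> simp

/-- In a group isomorphic to `Qd(p)`, no family of functors controls strong fusion. -/
theorem not_familyControls_of_qd {X : Type u} [Group X] [Finite X] (e : X ≃* ↥(Cfsg.qd p))
    {𝓦 : Set (∀ (Q : Type u) [Group Q], Subgroup Q)} (h𝓦 : ∀ W ∈ 𝓦, IsCharPFunctor.{u} p W) :
    ¬ FamilyControlsStrongFusionIn p ((fun W => inducedFunctor (G := X) W) '' 𝓦) ⊤ := by
  rintro ⟨T', -, hT'p, hT'i, hfam⟩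
  rw [Subgroup.relIndex_top_right] at hT'i
  -- the Sylow subgroup in coordinates
  set T0 := (qdS (p := p)).comap e.toMonoidHom with hT0
  have hT0p : IsPGroup p T0 := isPGroup_qdS.comap_of_injective e.toMonoidHom e.injective
  have hT0n : ∀ w ∈ Subgroup.normalizer (T0 : Set X), ∃ k : ZMod p,
      e w * qdEl 0 0 1 * (e w)⁻¹ = qdEl 0 0 k := by
    intro w hw
    obtain ⟨m, c, hmc⟩ := exists_aff (e w).2
    have hw' : e w = ⟨aff m c, aff_mem m c⟩ := Subtype.ext hmc.symm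
    have hconj : ∀ g ∈ qdS (p := p), e w * g * (e w)⁻¹ ∈ qdS := by
      intro g hg
      have h1 := (Subgroup.mem_normalizer_iff.1 hw (e.symm g)).1 (show e (e.symm g) ∈ qdS by rwa [e.apply_symm_apply])
      have h2 : e (w * e.symm g * w⁻¹) ∈ qdS := h1
      rwa [map_mul, map_mul, map_inv, e.apply_symm_apply] at h2
    have h3 : e w * qdEl 0 0 1 * (e w)⁻¹ =
        qdEl 0 (((m : Matrix (Fin 2) (Fin 2) (ZMod p)) *ᵥ ![1, 0]) 1)
          (((m : Matrix (Fin 2) (Fin 2) (ZMod p)) *ᵥ ![1, 0]) 0) := by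
      rw [qdEl_zero_eq, hw', qdT_conj, qdT_eq]
      rfl
    set x0 := ((m : Matrix (Fin 2) (Fin 2) (ZMod p)) *ᵥ ![1, 0]) 1
    set y0 := ((m : Matrix (Fin 2) (Fin 2) (ZMod p)) *ᵥ ![1, 0]) 0
    -- the image commutes with everything normal
    obtain ⟨a, x, y, hg⟩ : e w⁻¹ * qdEl 1 0 0 * (e w⁻¹)⁻¹ ∈ qdS := by
      have hw2 : w⁻¹ ∈ Subgroup.normalizer (T0 : Set X) := inv_mem hw
      have h1 := (Subgroup.mem_normalizer_iff.1 hw2 (e.symm (qdEl 1 0 0))).1
        (show e (e.symm (qdEl 1 0 0)) ∈ qdS by rw [e.apply_symm_apply]; exact ⟨_, _, _, rfl⟩)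
      have h2 : e (w⁻¹ * e.symm (qdEl 1 0 0) * w⁻¹⁻¹) ∈ qdS := h1
      simp only [map_mul, map_inv, e.apply_symm_apply, inv_inv] at h2 ⊢
      exact h2
    have hcomm : qdEl a x y * qdEl 0 0 1 = qdEl 0 0 1 * qdEl a x y := by
      rw [qdEl_mul, qdEl_mul]; congr 1 <;> ring
    have h4 : qdEl 1 0 0 * qdEl 0 x0 y0 = qdEl 0 x0 y0 * qdEl 1 0 0 := by
      have e1 : qdEl 1 0 0 = e w * qdEl a x y * (e w)⁻¹ := by rw [← hg, map_inv]; group
      rw [← h3, e1]
      calc e w * qdEl a x y * (e w)⁻¹ * (e w * qdEl 0 0 1 * (e w)⁻¹)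
          = e w * (qdEl a x y * qdEl 0 0 1) * (e w)⁻¹ := by group
        _ = _ := by rw [hcomm]; group
    rw [qdEl_mul, qdEl_mul] at h4
    obtain ⟨-, -, h5⟩ := qdEl_inj h4
    have hx0 : x0 = 0 := by linear_combination h5
    exact ⟨y0, by rw [h3, hx0]⟩
  obtain ⟨S0, hS0⟩ := hT0p.exists_le_sylow
  have hS0eq : (S0 : Subgroup X) = T0 := by
    refine le_antisymm ?_ hS0
    by_contra hne
    have hlt : T0 < (S0 : Subgroup X) := lt_of_le_of_ne hS0 fun h => hne h.ge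
    obtain ⟨w, hw, hwT⟩ := SetLike.exists_of_lt (WeakClosure.lt_inf_normalizer S0.isPGroup' hlt)
    obtain ⟨k, hk⟩ := hT0n w hw.2
    obtain ⟨m, c, hmc⟩ := exists_aff (e w).2
    have hw' : e w = ⟨aff m c, aff_mem m c⟩ := Subtype.ext hmc.symm
    rw [qdEl_zero_eq, hw', qdT_conj, qdT_eq] at hk
    obtain ⟨-, h10, -⟩ := qdEl_inj hk
    have h10' : m 1 0 = 0 := by simpa [Matrix.mulVec, dotProduct, Fin.sum_univ_two] using h10
    obtain ⟨n, hn⟩ := S0.isPGroup' ⟨w, hw.1⟩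
    have hn' : w ^ p ^ n = 1 := congrArg Subtype.val hn
    have hpow : ∀ j : ℕ, (((m : Matrix (Fin 2) (Fin 2) (ZMod p)) ^ j) 1 0 = 0) ∧
        ((m : Matrix (Fin 2) (Fin 2) (ZMod p)) ^ j) 0 0 = m 0 0 ^ j := by
      intro j
      induction j with
      | zero => simp
      | succ j ih =>
        constructor <;>
          simp [pow_succ, Matrix.mul_apply, Fin.sum_univ_two, ih.1, ih.2, h10']
    have hexp : ∀ j : ℕ, ∃ c', e (w ^ j) = ⟨aff (m ^ j) c', aff_mem _ _⟩ := by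
      intro j
      induction j with
      | zero => exact ⟨0, Subtype.ext (by simp [aff_one_zero])⟩
      | succ j ih =>
        obtain ⟨c', hc'⟩ := ih
        refine ⟨c' + ((m ^ j : Matrix.SpecialLinearGroup (Fin 2) (ZMod p)) : Matrix (Fin 2) (Fin 2) (ZMod p)) *ᵥ c,
          Subtype.ext ?_⟩
        show ((e (w ^ (j + 1)) : ↥(Cfsg.qd p)) : Matrix.SpecialLinearGroup (Fin 3) (ZMod p)) = aff (m ^ (j + 1)) _
        rw [pow_succ, map_mul, Subgroup.coe_mul, hc', hw', pow_succ, aff_mul]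
    obtain ⟨c', hc'⟩ := hexp (p ^ n)
    rw [hn', map_one] at hc'
    have h1 : aff (m ^ p ^ n) c' = aff 1 0 := by
      rw [aff_one_zero]
      exact (congrArg Subtype.val hc').symm
    have h2 : (m ^ p ^ n) 0 0 = 1 := by rw [(aff_inj h1).1]; simp
    rw [Matrix.SpecialLinearGroup.coe_pow, (hpow (p ^ n)).2, ZMod.pow_card_pow] at h2
    exact hwT (mem_qdS_iff hw' h10' h2)
  -- move to the given Sylow subgroup
  set S' : Sylow p X := hT'p.toSylow hT'i
  obtain ⟨g, hg⟩ := MulAction.exists_smul_eq X S0 S'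
  set e' : X ≃* ↥(Cfsg.qd p) := (MulAut.conj g).symm.trans e with he'
  set T := (qdS (p := p)).comap e'.toMonoidHom with hTdef
  have hTT' : T = T' := by
    have h1 : ((g • S0 : Sylow p X) : Subgroup X) = T' := by rw [hg]; rfl
    rw [← h1]
    ext x
    show e ((MulAut.conj g).symm x) ∈ qdS ↔ _
    rw [Sylow.coe_subgroup_smul, hS0eq, Subgroup.mem_pointwise_smul_iff_inv_smul_mem]
    rfl
  subst hTT'
  have hTp : IsPGroup p T := hT'p
  set V := (qdT (p := p)).range.comap e'.toMonoidHom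
  haveI : V.Normal := (qdT_range_normal (p := p)).comap _
  set z := e'.symm (qdEl 0 0 1) with hz
  set Z := Subgroup.zpowers z
  have hez : e' z = qdEl 0 0 1 := e'.apply_symm_apply _
  have hZmem : ∀ x, x ∈ Z ↔ ∃ k : ZMod p, e' x = qdEl 0 0 k := by
    intro x
    constructor
    · rintro ⟨n, rfl⟩
      refine Int.induction_on n ⟨0, by simp [qdEl_one]⟩ ?_ ?_
      · rintro i ⟨k, hk⟩
        refine ⟨k + 1, ?_⟩
        show e' (z ^ ((i : ℤ) + 1)) = _
        rw [zpow_add_one, map_mul]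
        rw [show e' (z ^ (i : ℤ)) = qdEl 0 0 k from hk, hez, qdEl_mul]
        congr 1 <;> ring
      · rintro i ⟨k, hk⟩
        refine ⟨k - 1, ?_⟩
        show e' (z ^ (-(i : ℤ) - 1)) = _
        rw [zpow_sub_one, map_mul, map_inv]
        rw [show e' (z ^ (-(i : ℤ))) = qdEl 0 0 k from hk, hez, qdEl_inv, qdEl_mul]
        congr 1 <;> ring
    · rintro ⟨k, hk⟩
      refine ⟨(k.val : ℤ), e'.injective ?_⟩
      show e' (z ^ ((k.val : ℕ) : ℤ)) = e' x
      rw [zpow_natCast, map_pow, hez, qdEl_centre_pow, hk, ZMod.natCast_rightInverse k, mul_one]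
  have hmemT : ∀ a x y, e'.symm (qdEl a x y) ∈ T := fun a x y => by
    show e' (e'.symm _) ∈ qdS
    rw [e'.apply_symm_apply]; exact ⟨_, _, _, rfl⟩
  have hmemV : ∀ x y, e'.symm (qdEl 0 x y) ∈ V := fun x y => by
    show e' (e'.symm _) ∈ qdT.range
    rw [e'.apply_symm_apply, qdEl_zero_eq]; exact ⟨_, rfl⟩
  have hVT : V ≤ T := fun v hv => by
    obtain ⟨c, hc⟩ := hv
    exact ⟨_, _, _, hc.symm.trans (qdT_eq c)⟩
  have hZT : ∀ x ∈ T, (∀ y ∈ T, x * y = y * x) → x ∈ Z := by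
    intro x hx hcen
    obtain ⟨a, b, c, habc⟩ := hx
    have h1 := congrArg e' (hcen _ (hmemT 0 1 0))
    have h2 := congrArg e' (hcen _ (hmemT 1 0 0))
    simp only [map_mul, e'.apply_symm_apply] at h1 h2
    rw [show e' x = qdEl a b c from habc, qdEl_mul, qdEl_mul] at h1 h2
    obtain ⟨-, -, ha⟩ := qdEl_inj h1
    obtain ⟨-, -, hb⟩ := qdEl_inj h2
    refine (hZmem x).2 ⟨c, ?_⟩
    rw [show e' x = qdEl a b c from habc, show a = 0 by linear_combination ha, show b = 0 by linear_combination -hb]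
  have hZc : ∀ x ∈ Z, ∀ y ∈ T, x * y = y * x := by
    intro x hx y hy
    obtain ⟨k, hk⟩ := (hZmem x).1 hx
    obtain ⟨a, b, c, habc⟩ := hy
    refine e'.injective ?_
    rw [map_mul, map_mul, hk, show e' y = qdEl a b c from habc, qdEl_mul, qdEl_mul]
    congr 1 <;> ring
  have hzZ : z ∈ Z := Subgroup.mem_zpowers z
  have hzT : z ∈ T := hmemT 0 0 1
  have hz1 : z ≠ 1 := fun h => by
    have := congrArg e' h
    rw [hez, map_one, ← qdEl_one] at this
    exact one_ne_zero (qdEl_inj this).2.2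
  have hzp : ∀ U : Subgroup X, U ≤ Z → U ≠ ⊥ → Z ≤ U := by
    intro U hU hU1
    obtain ⟨⟨x, hx⟩, hx1⟩ := Subgroup.ne_bot_iff_exists_ne_one.1 hU1
    obtain ⟨k, hk⟩ := (hZmem x).1 (hU hx)
    have hk0 : k ≠ 0 := fun h => hx1 (Subtype.ext (e'.injective (show e' x = e' 1 by rw [hk, h, qdEl_one, map_one])))
    refine Subgroup.zpowers_le.2 ?_
    have h1 := U.pow_mem hx (k⁻¹).val
    convert h1 using 1
    refine e'.injective ?_
    rw [map_pow, hk, qdEl_centre_pow, hez, ZMod.natCast_rightInverse k⁻¹, inv_mul_cancel₀ hk0]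
  have hZmin : ∀ U : Subgroup X, U ≤ T → T ≤ Subgroup.normalizer (U : Set X) → U ≠ ⊥ → Z ≤ U := by
    intro U hUT hTU hU1
    haveI : (U.subgroupOf T).Normal := (Subgroup.normal_subgroupOf_iff_le_normalizer hUT).2 hTU
    have hne : U.subgroupOf T ≠ ⊥ := fun h0 => hU1 (by
      rw [← Subgroup.map_subgroupOf_eq_of_le hUT, h0, Subgroup.map_bot])
    obtain ⟨⟨w, hw⟩, hw1⟩ := Subgroup.ne_bot_iff_exists_ne_one.1 (Transfer.inf_center_ne_bot hTp _ hne)
    have hwZ : (w : X) ∈ Z := hZT w w.2 fun y hy =>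
      (congrArg Subtype.val (Subgroup.mem_center_iff.1 hw.2 ⟨y, hy⟩)).symm
    refine le_trans (hzp (U ⊓ Z) inf_le_right fun h0 => hw1 ?_) inf_le_left
    have h1 : (w : X) ∈ U ⊓ Z := ⟨hw.1, hwZ⟩
    rw [h0, Subgroup.mem_bot] at h1
    exact Subtype.ext (Subtype.ext h1)
  have hZN : Subgroup.normalizer (T : Set X) ≤ Subgroup.normalizer (Z : Set X) := by
    intro w hw
    refine Subgroup.mem_normalizer_fintype fun x hx => ?_
    have hxT : x ∈ T := (Subgroup.zpowers_le.2 hzT) hx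
    refine hZT _ ((Subgroup.mem_normalizer_iff.1 hw x).1 hxT) fun y hy => ?_
    have hy' : w⁻¹ * y * w ∈ T := by simpa using (Subgroup.mem_normalizer_iff.1 (inv_mem hw) y).1 hy
    calc w * x * w⁻¹ * y = w * (x * (w⁻¹ * y * w)) * w⁻¹ := by group
      _ = _ := by rw [hZc x hx _ hy']; group
  have hZV : Z ≤ V := Subgroup.zpowers_le.2 (hmemV 0 1)
  have hZmid : ∀ U : Subgroup X, Z ≤ U → U ≤ V → U = Z ∨ U = V := by
    intro U hZU hUV
    by_cases hle : U ≤ Z
    · exact Or.inl (le_antisymm hle hZU)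
    obtain ⟨x, hxU, hxZ⟩ := SetLike.not_le_iff_exists.1 hle
    obtain ⟨c, hc⟩ := hUV hxU
    have hx' : e' x = qdEl 0 (c.toAdd 1) (c.toAdd 0) := hc.symm.trans (qdT_eq c)
    have hc1 : c.toAdd 1 ≠ 0 := fun h => hxZ ((hZmem x).2 ⟨c.toAdd 0, by rw [hx', h]⟩)
    refine Or.inr (le_antisymm hUV fun v hv => ?_)
    obtain ⟨d, hd⟩ := hv
    have hv' : e' v = qdEl 0 (d.toAdd 1) (d.toAdd 0) := hd.symm.trans (qdT_eq d)
    set n := (d.toAdd 1 * (c.toAdd 1)⁻¹).val
    have hmem : (x ^ n)⁻¹ * v ∈ Z := by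
      refine (hZmem _).2 ?_
      obtain ⟨w, hw⟩ := qdEl_pow 0 (c.toAdd 1) (c.toAdd 0) n
      refine ⟨-w + d.toAdd 0, ?_⟩
      rw [map_mul, map_inv, map_pow, hx', hw, hv', qdEl_inv, qdEl_mul]
      have hn : (n : ZMod p) * c.toAdd 1 = d.toAdd 1 := by
        rw [ZMod.natCast_rightInverse (d.toAdd 1 * (c.toAdd 1)⁻¹), mul_assoc, inv_mul_cancel₀ hc1, mul_one]
      congr 1 <;> first | linear_combination -hn | linear_combination hn | ring1
    have := U.mul_mem (U.pow_mem hxU n) (hZU hmem)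
    rwa [mul_inv_cancel_left] at this
  -- the automorphism
  let eT : T ≃* qdS (p := p) :=
    { toFun := fun t => ⟨e' t, t.2⟩
      invFun := fun s => ⟨e'.symm s, show e' (e'.symm s) ∈ qdS by rw [e'.apply_symm_apply]; exact s.2⟩
      left_inv := fun t => Subtype.ext (e'.symm_apply_apply _)
      right_inv := fun s => Subtype.ext (e'.apply_symm_apply _)
      map_mul' := fun a b => Subtype.ext (map_mul e' _ _) }
  set φ : T ≃* T := (eT.trans qdSwap).trans eT.symm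
  have hgen : ∀ U : Subgroup T, V.subgroupOf T ≤ U → (V.subgroupOf T).map φ.toMonoidHom ≤ U → U = ⊤ := by
    intro U h1 h2
    rw [eq_top_iff]
    rintro ⟨t, a, b, c, habc⟩ -
    have hA : (⟨e'.symm (qdEl a 0 0), hmemT a 0 0⟩ : T) ∈ U := by
      refine h2 ⟨⟨e'.symm (qdEl 0 a 0), hmemT 0 a 0⟩, hmemV a 0, ?_⟩
      show eT.symm (qdSwap (eT ⟨e'.symm (qdEl 0 a 0), _⟩)) = _
      have h3 : eT ⟨e'.symm (qdEl 0 a 0), hmemT 0 a 0⟩ = ⟨qdEl 0 a 0, _, _, _, rfl⟩ :=
        Subtype.ext (e'.apply_symm_apply _)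
      rw [h3]
      refine Subtype.ext (congrArg e'.symm ?_)
      refine (qdSwap_apply 0 a 0 _).trans ?_
      congr 1; ring
    have hB : (⟨e'.symm (qdEl 0 b (c - a * b)), hmemT _ _ _⟩ : T) ∈ U := h1 (hmemV b _)
    convert U.mul_mem hA hB using 1
    refine Subtype.ext (e'.injective ?_)
    show e' t = e' (e'.symm (qdEl a 0 0) * e'.symm (qdEl 0 b (c - a * b)))
    rw [map_mul, e'.apply_symm_apply, e'.apply_symm_apply, qdEl_mul, show e' t = qdEl a b c from habc]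
    congr 1 <;> ring
  have hT1 : T ≠ ⊥ := fun h => hz1 (Subgroup.mem_bot.1 (h ▸ hzT))
  -- an element moving z out of Z
  set h := e'.symm ⟨aff (loU 1) 0, aff_mem _ _⟩
  have hmove : e' (h * z * h⁻¹) = qdEl 0 1 1 := by
    rw [map_mul, map_mul, map_inv, hez, e'.apply_symm_apply, qdEl_zero_eq, qdT_conj, qdT_eq]
    congr 1 <;> simp [loU, Matrix.mulVec, dotProduct, Fin.sum_univ_two]
  have hhz : h * z * h⁻¹ ∈ T := by
    show e' (h * z * h⁻¹) ∈ qdS
    rw [hmove]; exact ⟨_, _, _, rfl⟩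
  obtain ⟨n, c, hc0, hstep, hin, hend⟩ := hfam {z} h (Subgroup.mem_top h) (Set.singleton_subset_iff.2 hzT)
    (by rintro _ ⟨_, rfl, rfl⟩; exact hhz)
  have hall : ∀ i : Fin (n + 1), c i * z * (c i)⁻¹ ∈ Z := by
    intro i
    induction i using Fin.induction with
    | zero => rw [hc0]; simpa using hzZ
    | succ i ih =>
      obtain ⟨F, ⟨W, hW, rfl⟩, -, hmemN⟩ := hstep i
      have hN := wN_le_normalizer (h𝓦 W hW) T V Z hTp hT1 hVT hZV hZmid hZmin hZN φ hgen hmemN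
      have h1 := (Subgroup.mem_normalizer_iff.1 hN _).1 ih
      rwa [show c i.succ * (c i.castSucc)⁻¹ * (c i.castSucc * z * (c i.castSucc)⁻¹) *
        (c i.succ * (c i.castSucc)⁻¹)⁻¹ = c i.succ * z * (c i.succ)⁻¹ by group] at h1
  have hfin := hall (Fin.last n)
  rw [hend z rfl] at hfin
  obtain ⟨k, hk⟩ := (hZmem _).1 hfin
  rw [hmove] at hk
  exact one_ne_zero (qdEl_inj hk).2.1

end Cfsg.Lib.PStable
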